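import Cfsg.Agent.S0496
import Cfsg.Agent.S0678
import Cfsg.Agent.Lib.SecRank4.Orb
import Cfsg.Agent.Lib.Core.Basic

/-!
# Subgroups of `A₈` with a nontrivial normal subgroup of odd order
-/

set_option autoImplicit false

namespace Cfsg.Agent.Lib.SecRank4.OddCore

open MulAction
open scoped Pointwise

/-- Small groups whose order has no divisor among the simple orders are solvable. -/
theorem isSolvable_of_small : ∀ (n : ℕ) {G : Type*} [Group G] [Finite G], Nat.card G = n → n ≤ 1092 →
    ¬ 60 ∣ n → ¬ 168 ∣ n → ¬ 360 ∣ n → ¬ 504 ∣ n → ¬ 660 ∣ n → ¬ 1092 ∣ n → Group.IsSolvable G := by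
  intro n
  induction n using Nat.strong_induction_on with
  | _ n ih =>
    intro G _ _ hn hle h1 h2 h3 h4 h5 h6
    by_cases hsub : Subsingleton G
    · infer_instance
    rw [not_subsingleton_iff_nontrivial] at hsub
    by_cases hs : IsSimpleGroup G
    · by_cases hc : IsMulCommutative G
      · exact Group.isSolvable_of_comm (fun a b => mul_comm' a b)
      · exfalso
        rcases Cfsg.Agent.S0496.result hc (hn ▸ hle) with h | h | h | h | h | h <;> rw [hn] at h <;> subst h
        · exact h1 dvd_rfl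
        · exact h2 dvd_rfl
        · exact h3 dvd_rfl
        · exact h4 dvd_rfl
        · exact h5 dvd_rfl
        · exact h6 dvd_rfl
    · have hex : ∃ N : Subgroup G, N.Normal ∧ N ≠ ⊥ ∧ N ≠ ⊤ := by
        by_contra hcon
        push Not at hcon
        apply hs
        refine ⟨fun N hN => ?_⟩
        by_cases hb : N = ⊥
        · exact Or.inl hb
        · exact Or.inr (hcon N hN hb)
      obtain ⟨N, hN, hb, ht⟩ := hex
      have hpos : 0 < n := hn ▸ Nat.card_pos
      have hd1 : Nat.card N ∣ n := hn ▸ Subgroup.card_subgroup_dvd_card N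
      have hd2 : Nat.card (G ⧸ N) ∣ n := hn ▸ Subgroup.card_quotient_dvd_card N
      have hlt1 : Nat.card N < n := by
        refine lt_of_le_of_ne (Nat.le_of_dvd hpos hd1) ?_
        intro h
        exact ht (Subgroup.eq_top_of_card_eq N (by rw [h, hn]))
      have hlt2 : Nat.card (G ⧸ N) < n := by
        refine lt_of_le_of_ne (Nat.le_of_dvd hpos hd2) ?_
        intro h
        have h3 := N.card_eq_card_quotient_mul_card_subgroup
        rw [h, hn] at h3
        have h4 : Nat.card N = 1 := by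
          have := Nat.eq_of_mul_eq_mul_left hpos (by rw [mul_one]; exact h3.symm : n * Nat.card N = n * 1)
          exact this
        exact hb (Subgroup.card_eq_one.mp h4)
      have hS1 : Group.IsSolvable N := ih _ hlt1 rfl (hlt1.le.trans hle) (fun h => h1 (h.trans hd1))
        (fun h => h2 (h.trans hd1)) (fun h => h3 (h.trans hd1)) (fun h => h4 (h.trans hd1))
        (fun h => h5 (h.trans hd1)) (fun h => h6 (h.trans hd1))
      have hS2 : Group.IsSolvable (G ⧸ N) := ih _ hlt2 rfl (hlt2.le.trans hle) (fun h => h1 (h.trans hd2))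
        (fun h => h2 (h.trans hd2)) (fun h => h3 (h.trans hd2)) (fun h => h4 (h.trans hd2))
        (fun h => h5 (h.trans hd2)) (fun h => h6 (h.trans hd2))
      exact (Group.isSolvable_iff_subgroup_quotient N).mpr ⟨hS1, hS2⟩

/-- A group whose order divides a number without simple divisors is solvable. -/
theorem isSolvable_of_dvd {G : Type*} [Group G] [Finite G] {m : ℕ} (hm : m ≠ 0) (hm' : m ≤ 1092)
    (hd : Nat.card G ∣ m) (h1 : ¬ 60 ∣ m) (h2 : ¬ 168 ∣ m) (h3 : ¬ 360 ∣ m) (h4 : ¬ 504 ∣ m)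
    (h5 : ¬ 660 ∣ m) (h6 : ¬ 1092 ∣ m) : Group.IsSolvable G :=
  isSolvable_of_small _ rfl ((Nat.le_of_dvd (Nat.pos_of_ne_zero hm) hd).trans hm')
    (fun h => h1 (h.trans hd)) (fun h => h2 (h.trans hd)) (fun h => h3 (h.trans hd))
    (fun h => h4 (h.trans hd)) (fun h => h5 (h.trans hd)) (fun h => h6 (h.trans hd))

section perm

variable {α : Type*} [Fintype α] [DecidableEq α]

lemma odd_order_of_mem {G : Type*} [Group G] [Finite G] {R : Subgroup G} (hodd : Odd (Nat.card R))
    {r : G} (hr : r ∈ R) : Odd (orderOf r) := by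
  have h1 : orderOf r ∣ Nat.card R := by
    have := orderOf_dvd_natCard (⟨r, hr⟩ : R)
    rwa [Subgroup.orderOf_mk] at this
  exact hodd.of_dvd_nat h1

/-- A normal subgroup of odd order in a group containing the alternating group is trivial. -/
lemma eq_bot_of_alt {T R : Subgroup (Equiv.Perm α)} (hA : alternatingGroup α ≤ T)
    (h5 : 5 ≤ Fintype.card α) (hRT : ∀ t ∈ T, ∀ r ∈ R, t * r * t⁻¹ ∈ R)
    (hodd : Odd (Nat.card R)) : R = ⊥ := by
  classical
  have hle : R ≤ alternatingGroup α := by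
    intro r hr
    rw [Equiv.Perm.mem_alternatingGroup]
    obtain ⟨k, hk⟩ := odd_order_of_mem hodd hr
    have h1 : (Equiv.Perm.sign r) ^ (orderOf r) = 1 := by
      rw [← map_pow, pow_orderOf_eq_one, map_one]
    rcases Int.units_eq_one_or (Equiv.Perm.sign r) with h | h
    · exact h
    · exfalso
      rw [h, hk, pow_succ, pow_mul] at h1
      simp at h1
  haveI hsimple : IsSimpleGroup (alternatingGroup α) :=
    alternatingGroup.isSimpleGroup (by rw [Nat.card_eq_fintype_card]; exact h5)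
  have hN : (R.subgroupOf (alternatingGroup α)).Normal := by
    constructor
    intro n hn g
    rw [Subgroup.mem_subgroupOf] at hn ⊢
    exact hRT _ (hA g.2) _ hn
  rcases IsSimpleGroup.eq_bot_or_eq_top_of_normal _ hN with h | h
  · rw [eq_bot_iff]
    intro r hr
    have h1 : (⟨r, hle hr⟩ : alternatingGroup α) ∈ R.subgroupOf (alternatingGroup α) := hr
    rw [h, Subgroup.mem_bot] at h1
    exact (Subgroup.mem_bot).mpr (congrArg Subtype.val h1)
  · exfalso
    haveI : Nontrivial α := Fintype.one_lt_card_iff_nontrivial.mp (by omega)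
    have hcard : Nat.card (alternatingGroup α) * 2 = Nat.factorial (Fintype.card α) := by
      have := two_mul_nat_card_alternatingGroup (α := α)
      rw [Nat.card_eq_fintype_card (α := Equiv.Perm α), Fintype.card_perm] at this
      rw [mul_comm]
      exact this
    have h4 : 4 ∣ Nat.factorial (Fintype.card α) := by
      apply Nat.dvd_factorial (by norm_num) (by omega)
    have h2 : 2 ∣ Nat.card (alternatingGroup α) := by
      rw [← hcard] at h4
      omega
    haveI : Fact (Nat.Prime 2) := ⟨Nat.prime_two⟩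
    obtain ⟨a, ha⟩ := exists_prime_orderOf_dvd_card' 2 h2
    have hm : (a : Equiv.Perm α) ∈ R := by
      have : a ∈ R.subgroupOf (alternatingGroup α) := h ▸ Subgroup.mem_top a
      exact this
    have h3 := odd_order_of_mem hodd hm
    rw [Subgroup.orderOf_coe, ha] at h3
    exact absurd h3 (by decide)

/-- A nonsolvable subgroup of `Sym(5)` contains the alternating group. -/
lemma alt_le_of_five {T : Subgroup (Equiv.Perm α)} (hα : Fintype.card α = 5)
    (hns : ¬ Group.IsSolvable T) : alternatingGroup α ≤ T := by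
  have hcard : Nat.card (Equiv.Perm α) = 120 := by
    rw [Nat.card_eq_fintype_card, Fintype.card_perm, hα]
    rfl
  have hd : Nat.card T ∣ 120 := hcard ▸ Subgroup.card_subgroup_dvd_card T
  have h60 : 60 ∣ Nat.card T := by
    by_contra h
    apply hns
    refine isSolvable_of_small _ rfl ?_ h ?_ ?_ ?_ ?_ ?_
    · exact (Nat.le_of_dvd (by norm_num) hd).trans (by norm_num)
    all_goals intro h'; have := h'.trans hd; norm_num at this
  apply Equiv.Perm.alternatingGroup_le_of_index_le_two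
  have h1 := T.card_mul_index
  rw [hcard] at h1
  obtain ⟨k, hk⟩ := h60
  rw [hk] at h1
  have h2 : 60 * (k * T.index) = 60 * 2 := by
    rw [← mul_assoc, h1]
  have h3 : k * T.index = 2 := Nat.eq_of_mul_eq_mul_left (by norm_num) h2
  have hk0 : 0 < k := by
    rcases Nat.eq_zero_or_pos k with rfl | h
    · simp at h3
    · exact h
  calc T.index ≤ k * T.index := Nat.le_mul_of_pos_left _ hk0
    _ = 2 := h3

variable {T R : Subgroup (Equiv.Perm α)}

lemma orbit_dvd [IsPretransitive T α] (hRT : ∀ t ∈ T, ∀ r ∈ R, t * r * t⁻¹ ∈ R) (hR : R ≤ T)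
    (hodd : Odd (Nat.card R)) (y : α) :
    ∃ B : Set α, y ∈ B ∧ IsBlock T B ∧ (∀ r ∈ R, ∀ a ∈ B, r a ∈ B) ∧ B.ncard ∣ Fintype.card α ∧
      Odd B.ncard ∧ (B.ncard = 1 → ∀ r ∈ R, r y = y) := by
  classical
  let R₁ : Subgroup T := R.subgroupOf T
  haveI hN : R₁.Normal := by
    constructor
    intro n hn g
    rw [Subgroup.mem_subgroupOf] at hn ⊢
    exact hRT _ g.2 _ hn
  have hB : IsBlock T (orbit R₁ y) := IsBlock.orbit_of_normal y
  have hy : y ∈ orbit R₁ y := mem_orbit_self y
  have hcardR₁ : Nat.card R₁ = Nat.card R :=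
    Nat.card_congr (Subgroup.subgroupOfEquivOfLe hR).toEquiv
  refine ⟨orbit R₁ y, hy, hB, ?_, ?_, ?_, ?_⟩
  · rintro r hr _ ⟨s, rfl⟩
    refine ⟨⟨⟨r, hR hr⟩, Subgroup.mem_subgroupOf.mpr hr⟩ * s, ?_⟩
    change (_ * s) • y = r (s • y)
    rw [mul_smul]
    rfl
  · have := hB.ncard_dvd_card ⟨y, hy⟩
    rwa [Nat.card_eq_fintype_card] at this
  · rw [← index_stabilizer]
    apply hodd.of_dvd_nat
    rw [← hcardR₁]
    exact Subgroup.index_dvd_card _
  · intro h1 r hr
    obtain ⟨a, ha⟩ := Set.ncard_eq_one.mp h1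
    have h2 : y = a := by
      have : y ∈ ({a} : Set α) := ha ▸ hy
      exact this
    have h3 : r y ∈ orbit R₁ y := ⟨⟨⟨r, hR hr⟩, Subgroup.mem_subgroupOf.mpr hr⟩, rfl⟩
    rw [ha] at h3
    rw [h2] at h3 ⊢
    exact h3

lemma eq_bot_of_fix [IsPretransitive T α] (hRT : ∀ t ∈ T, ∀ r ∈ R, t * r * t⁻¹ ∈ R) {y : α}
    (hy : ∀ r ∈ R, r y = y) : R = ⊥ := by
  rw [eq_bot_iff]
  intro r hr
  rw [Subgroup.mem_bot]
  ext a
  obtain ⟨t, ht⟩ := exists_smul_eq T y a
  have h1 := hy _ (hRT _ (T.inv_mem t.2) r hr)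
  have h2 : ((t : Equiv.Perm α))⁻¹ * r * ((t : Equiv.Perm α))⁻¹⁻¹ = ((t : Equiv.Perm α))⁻¹ * r * t := by
    simp
  rw [h2] at h1
  have h3 : (t : Equiv.Perm α) y = a := ht
  have h4 : ((t : Equiv.Perm α))⁻¹ (r a) = ((t : Equiv.Perm α))⁻¹ a := by
    rw [← h3]
    simpa [Equiv.Perm.mul_apply] using h1
  simpa using h4

/-- Degree eight. -/
lemma eq_bot_eight [IsPretransitive T α] (hα : Fintype.card α = 8)
    (hRT : ∀ t ∈ T, ∀ r ∈ R, t * r * t⁻¹ ∈ R) (hR : R ≤ T) (hodd : Odd (Nat.card R)) : R = ⊥ := by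
  have hne : Nonempty α := Fintype.card_pos_iff.mp (by omega)
  obtain ⟨y⟩ := hne
  obtain ⟨B, -, -, -, hd, ho, hf⟩ := orbit_dvd hRT hR hodd y
  rw [hα] at hd
  have h1 : B.ncard = 1 := by
    have hle := Nat.le_of_dvd (by norm_num) hd
    obtain ⟨k, hk⟩ := ho
    interval_cases hb : B.ncard <;> omega
  exact eq_bot_of_fix hRT (hf h1)

/-- Degree six. -/
lemma eq_bot_six [IsPretransitive T α] (hα : Fintype.card α = 6) (hns : ¬ Group.IsSolvable T)
    (hRT : ∀ t ∈ T, ∀ r ∈ R, t * r * t⁻¹ ∈ R) (hR : R ≤ T) (hodd : Odd (Nat.card R)) : R = ⊥ := by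
  classical
  have hcard : Nat.card (Equiv.Perm α) = 720 := by
    rw [Nat.card_eq_fintype_card, Fintype.card_perm, hα]
    rfl
  have hd : Nat.card T ∣ 720 := hcard ▸ Subgroup.card_subgroup_dvd_card T
  have h5 : 5 ∣ Nat.card T := by
    by_contra h
    apply hns
    have h2 : Nat.card T ∣ 144 := by
      have hc : Nat.Coprime (Nat.card T) 5 :=
        ((Nat.Prime.coprime_iff_not_dvd (by norm_num)).mpr h).symm
      exact hc.dvd_of_dvd_mul_left (by simpa using hd)
    refine isSolvable_of_dvd (by norm_num) (by norm_num) h2 ?_ ?_ ?_ ?_ ?_ ?_ <;> norm_num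
  haveI : Fact (Nat.Prime 5) := ⟨by norm_num⟩
  obtain ⟨c, hc⟩ := exists_prime_orderOf_dvd_card' 5 h5
  have hc5 : (c : Equiv.Perm α) ^ 5 = 1 := by
    have := pow_orderOf_eq_one c
    rw [hc] at this
    exact congrArg Subtype.val this
  have h5' : ∀ x, (c : Equiv.Perm α) ((c : Equiv.Perm α) ((c : Equiv.Perm α) ((c : Equiv.Perm α)
      ((c : Equiv.Perm α) x)))) = x := by
    intro x
    have := congrArg (fun σ : Equiv.Perm α => σ x) hc5
    exact this
  have hmod := Cfsg.Agent.Lib.SecRank4.Orb.card_modEq_fixed (fun x => (c : Equiv.Perm α) x) h5'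
  rw [Nat.card_eq_fintype_card, hα] at hmod
  have hfixle : Nat.card {x // (c : Equiv.Perm α) x = x} ≤ 6 := by
    rw [← hα, ← Nat.card_eq_fintype_card]
    exact Finite.card_subtype_le _
  have hfix1 : Nat.card {x // (c : Equiv.Perm α) x = x} = 1 := by
    have hm : 6 % 5 = Nat.card {x // (c : Equiv.Perm α) x = x} % 5 := hmod
    have hne : Nat.card {x // (c : Equiv.Perm α) x = x} ≠ 6 := by
      intro h6
      have hall : ∀ x, (c : Equiv.Perm α) x = x := by
        intro x
        by_contra hx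
        have h7 : Nat.card {x // (c : Equiv.Perm α) x = x} < Nat.card α := by
          exact Finite.card_subtype_lt (p := fun x => (c : Equiv.Perm α) x = x) hx
        rw [h6, Nat.card_eq_fintype_card, hα] at h7
        omega
      have h8 : c = 1 := by
        apply Subtype.ext
        ext x
        exact hall x
      rw [h8, orderOf_one] at hc
      omega
    omega
  obtain ⟨⟨z, hz⟩, huniq⟩ : ∃ a : {x // (c : Equiv.Perm α) x = x}, ∀ b, b = a := by
    have := (Nat.card_eq_one_iff_unique).mp hfix1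
    obtain ⟨h1, ⟨a⟩⟩ := this
    exact ⟨a, fun b => Subsingleton.elim _ _⟩
  obtain ⟨B, hzB, hB, hRB, hdB, hoB, hfB⟩ := orbit_dvd hRT hR hodd z
  -- `c` preserves the block
  have hcB : c • B = B := by
    have h : c • z ∈ B := by
      rw [show c • z = z from hz]
      exact hzB
    exact hB.smul_eq_of_mem hzB h
  have hcmem : ∀ a ∈ B, (c : Equiv.Perm α) a ∈ B := by
    intro a ha
    have : c • a ∈ c • B := Set.smul_mem_smul_set ha
    rw [hcB] at this
    exact this
  let f : B → B := fun a => ⟨(c : Equiv.Perm α) a, hcmem a a.2⟩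
  have hf5 : ∀ x, f (f (f (f (f x)))) = x := fun x => Subtype.ext (h5' x)
  have hm := Cfsg.Agent.Lib.SecRank4.Orb.card_modEq_fixed f hf5
  have hfixB : Nat.card {x // f x = x} = 1 := by
    have : Unique {x // f x = x} :=
      { default := ⟨⟨z, hzB⟩, Subtype.ext hz⟩
        uniq := by
          rintro ⟨⟨a, ha⟩, hfa⟩
          apply Subtype.ext
          apply Subtype.ext
          have h1 : (c : Equiv.Perm α) a = a := congrArg Subtype.val hfa
          have h2 := huniq ⟨a, h1⟩
          have h3 : a = z := congrArg (fun w : {x // (c : Equiv.Perm α) x = x} => (w : α)) h2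
          exact h3 }
    exact Nat.card_unique
  rw [hfixB] at hm
  have hcardB : Nat.card B = B.ncard := rfl
  rw [hcardB] at hm
  rw [hα] at hdB
  have h1 : B.ncard = 1 := by
    have hle := Nat.le_of_dvd (by norm_num) hdB
    have hm' : B.ncard % 5 = 1 % 5 := hm
    obtain ⟨k, hk⟩ := hoB
    interval_cases hb : B.ncard <;> omega
  exact eq_bot_of_fix hRT (hfB h1)

/-- Degree seven. -/
lemma eq_bot_seven [IsPretransitive T α] (hα : Fintype.card α = 7) (hns : ¬ Group.IsSolvable T)
    (hRT : ∀ t ∈ T, ∀ r ∈ R, t * r * t⁻¹ ∈ R) (hR : R ≤ T) (hodd : Odd (Nat.card R)) : R = ⊥ := by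
  by_cases hA : alternatingGroup α ≤ T
  · exact eq_bot_of_alt hA (by omega) hRT hodd
  obtain ⟨h168, hsimple⟩ := Cfsg.Agent.S0678.result hα T hns hA
  have hN : (R.subgroupOf T).Normal := by
    constructor
    intro n hn g
    rw [Subgroup.mem_subgroupOf] at hn ⊢
    exact hRT _ g.2 _ hn
  rcases hsimple.eq_bot_or_eq_top_of_normal _ hN with h | h
  · rw [eq_bot_iff]
    intro r hr
    have h1 : (⟨r, hR hr⟩ : T) ∈ R.subgroupOf T := hr
    rw [h, Subgroup.mem_bot] at h1
    exact (Subgroup.mem_bot).mpr (congrArg Subtype.val h1)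
  · exfalso
    have h1 : Nat.card (R.subgroupOf T) = Nat.card R :=
      Nat.card_congr (Subgroup.subgroupOfEquivOfLe hR).toEquiv
    rw [h, Subgroup.card_top, h168] at h1
    rw [← h1] at hodd
    exact absurd hodd (by decide)

/-- Degree five. -/
lemma eq_bot_five (hα : Fintype.card α = 5) (hns : ¬ Group.IsSolvable T)
    (hRT : ∀ t ∈ T, ∀ r ∈ R, t * r * t⁻¹ ∈ R) (hodd : Odd (Nat.card R)) : R = ⊥ :=
  eq_bot_of_alt (alt_le_of_five hα hns) (by omega) hRT hodd

end perm

section final

variable {Q : Type*} [Group Q] [Finite Q]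

/-- The final step in degree five. -/
lemma final_five {α : Type*} [Fintype α] [DecidableEq α] (hα : Fintype.card α = 5)
    (ψ : Q →* Equiv.Perm α) (hns : ¬ Group.IsSolvable ψ.range) (hK3 : Nat.card ψ.ker = 3) :
    Nat.card (Cfsg.pCore 3 Q) = 3 ∧
      (Nonempty (Q ⧸ Cfsg.pCore 3 Q ≃* ↥(alternatingGroup (Fin 5))) ∨
        Nonempty (Q ⧸ Cfsg.pCore 3 Q ≃* Equiv.Perm (Fin 5))) := by
  haveI : Fact (Nat.Prime 3) := ⟨by norm_num⟩
  have hA := alt_le_of_five hα hns
  have hKp : IsPGroup 3 ψ.ker := IsPGroup.of_card (n := 1) (by rw [hK3]; norm_num)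
  have hKle : ψ.ker ≤ Cfsg.pCore 3 Q := Cfsg.Agent.Lib.Core.Basic.le_pCore ψ.normal_ker hKp
  haveI hPn : (Cfsg.pCore 3 Q).Normal := Cfsg.pCore_normal 3 Q
  have hbot : (Cfsg.pCore 3 Q).map ψ = ⊥ := by
    apply eq_bot_of_alt hA (by omega)
    · rintro t ⟨g, rfl⟩ _ ⟨r, hr, rfl⟩
      exact ⟨g * r * g⁻¹, hPn.conj_mem r hr g, by simp⟩
    · have hd : Nat.card ((Cfsg.pCore 3 Q).map ψ) ∣ Nat.card (Cfsg.pCore 3 Q) :=
        Subgroup.card_map_dvd _ _
      obtain ⟨m, hm⟩ := IsPGroup.iff_card.mp (Cfsg.Agent.Lib.Core.Basic.pCore_isPGroup (p := 3) (G := Q))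
      rw [hm] at hd
      have hodd : Odd (3 ^ m) := Odd.pow (by decide)
      exact hodd.of_dvd_nat hd
  have hle : Cfsg.pCore 3 Q ≤ ψ.ker := (Subgroup.map_eq_bot_iff _).mp hbot
  have heq : Cfsg.pCore 3 Q = ψ.ker := le_antisymm hle hKle
  refine ⟨by rw [heq, hK3], ?_⟩
  let E₁ : Q ⧸ Cfsg.pCore 3 Q ≃* ψ.range :=
    (QuotientGroup.quotientMulEquivOfEq heq).trans (QuotientGroup.quotientKerEquivRange ψ)
  let e : α ≃ Fin 5 := Fintype.equivFinOfCardEq hα
  by_cases hr : ψ.range = alternatingGroup α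
  · left
    exact ⟨E₁.trans ((MulEquiv.subgroupCongr hr).trans (Equiv.altCongrHom e))⟩
  · right
    have htop : ψ.range = ⊤ := by
      have hex : ∃ t ∈ ψ.range, t ∉ alternatingGroup α := by
        by_contra hcon
        push Not at hcon
        exact hr (le_antisymm hcon hA)
      obtain ⟨t, ht, hta⟩ := hex
      rw [eq_top_iff]
      intro σ _
      by_cases hσ : σ ∈ alternatingGroup α
      · exact hA hσ
      · have h1 : t⁻¹ * σ ∈ alternatingGroup α := by
          rw [Equiv.Perm.mem_alternatingGroup] at hσ hta ⊢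
          have h2 := (Int.units_eq_one_or (Equiv.Perm.sign t)).resolve_left hta
          have h3 := (Int.units_eq_one_or (Equiv.Perm.sign σ)).resolve_left hσ
          rw [map_mul, map_inv, h2, h3]
          rfl
        have h2 := ψ.range.mul_mem ht (hA h1)
        simpa using h2
    exact ⟨E₁.trans ((MulEquiv.subgroupCongr htop).trans
      (Subgroup.topEquiv.trans (Equiv.permCongrHom e)))⟩

end final

section action

variable {Q : Type*} [Group Q] [Finite Q] {Ω : Type*} [Fintype Ω] [DecidableEq Ω] [MulAction Q Ω]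

/-- A solvable group is a group with small orbits. -/
lemma exists_large_orbit (hf : Function.Injective (toPermHom Q Ω)) (hns : ¬ Group.IsSolvable Q) :
    ∃ x : Ω, 5 ≤ (orbit Q x).ncard := by
  classical
  by_contra hcon
  push Not at hcon
  apply hns
  have hs : ∀ x : Ω, Group.IsSolvable (Equiv.Perm (orbit Q x)) := by
    intro x
    have h1 : Nat.card (orbit Q x) ≤ 4 := by
      have := hcon x
      change (orbit Q x).ncard ≤ 4
      omega
    have hc : Nat.card (Equiv.Perm (orbit Q x)) ∣ 24 := by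
      rw [Nat.card_eq_fintype_card, Fintype.card_perm, ← Nat.card_eq_fintype_card]
      exact Nat.factorial_dvd_factorial h1
    exact isSolvable_of_dvd (by norm_num) (by norm_num) hc (by norm_num) (by norm_num) (by norm_num)
      (by norm_num) (by norm_num) (by norm_num)
  choose n hn using fun x => (Group.isSolvable_def (Equiv.Perm (orbit Q x))).mp (hs x)
  rw [Group.isSolvable_def]
  refine ⟨Finset.univ.sup n, ?_⟩
  rw [eq_bot_iff]
  intro g hg
  rw [Subgroup.mem_bot]
  apply hf
  rw [map_one]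
  ext x
  have h1 : toPermHom Q (orbit Q x) g ∈ (derivedSeries Q (Finset.univ.sup n)).map
      (toPermHom Q (orbit Q x)) := ⟨g, hg, rfl⟩
  have h2 := map_derivedSeries_le_derivedSeries (toPermHom Q (orbit Q x)) _ h1
  have h3 : derivedSeries (Equiv.Perm (orbit Q x)) (Finset.univ.sup n) ≤
      derivedSeries (Equiv.Perm (orbit Q x)) (n x) :=
    derivedSeries_antitone (Equiv.Perm (orbit Q x)) (Finset.le_sup (Finset.mem_univ x))
  have h4 := h3 h2
  rw [hn x, Subgroup.mem_bot] at h4
  have h5 := congrArg (fun σ : Equiv.Perm (orbit Q x) => ((σ ⟨x, mem_orbit_self x⟩ : orbit Q x) : Ω)) h4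
  exact h5

lemma eq_one_of_even {σ : Equiv.Perm Ω} (hs : Equiv.Perm.sign σ = 1) (S : Finset Ω) (hS : S.card ≤ 2)
    (h : ∀ y, y ∉ S → σ y = y) : σ = 1 := by
  have hsupp : σ.support ⊆ S := by
    intro y hy
    rw [Equiv.Perm.mem_support] at hy
    by_contra hyS
    exact hy (h y hyS)
  have hc := Finset.card_le_card hsupp
  have h1 := Equiv.Perm.card_support_ne_one σ
  have hc' : σ.support.card = 0 ∨ σ.support.card = 2 := by omega
  rcases hc' with h0 | h2
  · rw [Finset.card_eq_zero, Equiv.Perm.support_eq_empty_iff] at h0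
    exact h0
  · exfalso
    have h3 := Equiv.Perm.card_support_eq_two.mp h2
    rw [h3.sign_eq] at hs
    exact absurd hs (by decide)

/-- The main theorem of this file. -/
theorem main_odd (hΩ : Fintype.card Ω = 8) (hf : Function.Injective (toPermHom Q Ω))
    (hev : ∀ g, Equiv.Perm.sign (toPermHom Q Ω g) = 1) (hns : ¬ Group.IsSolvable Q)
    (R : Subgroup Q) [hRn : R.Normal] (hR : Odd (Nat.card R)) (hR1 : R ≠ ⊥) :
    Nat.card (Cfsg.pCore 3 Q) = 3 ∧
      (Nonempty (Q ⧸ Cfsg.pCore 3 Q ≃* ↥(alternatingGroup (Fin 5))) ∨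
        Nonempty (Q ⧸ Cfsg.pCore 3 Q ≃* Equiv.Perm (Fin 5))) := by
  classical
  obtain ⟨x, hx⟩ := exists_large_orbit hf hns
  set O := orbit Q x with hO
  let ψ : Q →* Equiv.Perm O := toPermHom Q O
  have hcardO : Fintype.card O = O.ncard := by
    rw [← Nat.card_eq_fintype_card]
    rfl
  have hle8 : O.ncard ≤ 8 := by
    rw [← hcardO, ← hΩ]
    exact Fintype.card_subtype_le _
  let S : Finset Ω := Finset.univ.filter (fun y => y ∉ O)
  have hmemS : ∀ {y}, y ∈ S ↔ y ∉ O := by
    intro y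
    simp [S]
  have hScard : S.card + O.ncard = 8 := by
    have h1 : S.card = Fintype.card {y // y ∉ O} := (Fintype.card_subtype _).symm
    have h2 := Fintype.card_subtype_compl (fun y => y ∈ O)
    rw [h1, ← hcardO, h2, hΩ]
    have : Fintype.card {y // y ∈ O} ≤ 8 := by
      rw [← hΩ]; exact Fintype.card_subtype_le _
    have h3 : Fintype.card {y // y ∈ O} = Fintype.card O := rfl
    omega
  -- the kernel
  have hkerfix : ∀ k ∈ ψ.ker, ∀ a ∈ O, k • a = a := by
    intro k hk a ha
    have h1 : ψ k = 1 := hk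
    have h2 := congrArg (fun σ : Equiv.Perm O => ((σ ⟨a, ha⟩ : O) : Ω)) h1
    exact h2
  have hOinv : ∀ (g : Q) {y : Ω}, g • y ∈ O → y ∈ O := by
    intro g y hy
    have h1 : g⁻¹ • (g • y) ∈ O := by
      obtain ⟨s, hs⟩ := hy
      refine ⟨g⁻¹ * s, ?_⟩
      change (g⁻¹ * s) • x = _
      rw [mul_smul]
      congr 1
    simpa using h1
  have hfix_one : ∀ k ∈ ψ.ker, ∀ T : Finset Ω, T.card ≤ 2 → (∀ y, y ∉ T → y ∉ O → k • y = y) → k = 1 := by
    intro k hk T hT hfixT
    apply hf
    rw [map_one]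
    apply eq_one_of_even (hev k) T hT
    intro y hy
    by_cases hyO : y ∈ O
    · exact hkerfix k hk y hyO
    · exact hfixT y hy hyO
  have hker6 : 6 ≤ O.ncard → ψ.ker = ⊥ := by
    intro h6
    rw [eq_bot_iff]
    intro k hk
    rw [Subgroup.mem_bot]
    apply hfix_one k hk S (by omega)
    intro y hy hyO
    exact absurd (hmemS.mpr hyO) hy
  have hker5 : O.ncard = 5 → Nat.card ψ.ker ≤ 3 := by
    intro h5
    have hSpos : 0 < S.card := by omega
    obtain ⟨p, hp⟩ := Finset.card_pos.mp hSpos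
    let g : ψ.ker → S := fun k => ⟨(k : Q) • p, by
      rw [hmemS]
      intro h
      exact hmemS.mp hp (hOinv _ h)⟩
    have hg : Function.Injective g := by
      intro k k' hkk
      have h1 : (k : Q) • p = (k' : Q) • p := congrArg Subtype.val hkk
      have h2 : ((k' : Q)⁻¹ * k) • p = p := by
        rw [mul_smul, h1, inv_smul_smul]
      have hm : (k' : Q)⁻¹ * k ∈ ψ.ker := ψ.ker.mul_mem (ψ.ker.inv_mem k'.2) k.2
      have h3 := hfix_one _ hm (S.erase p) (by rw [Finset.card_erase_of_mem hp]; omega) (by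
        intro y hy hyO
        have hyS := hmemS.mpr hyO
        by_cases hyp : y = p
        · rw [hyp, h2]
        · exact absurd (Finset.mem_erase.mpr ⟨hyp, hyS⟩) hy)
      apply Subtype.ext
      exact (inv_mul_eq_one.mp h3).symm
    have h4 := Nat.card_le_card_of_injective g hg
    rw [Nat.card_eq_fintype_card (α := S), Fintype.card_coe] at h4
    omega
  have hker3 : Nat.card ψ.ker ≤ 3 := by
    by_cases h6 : 6 ≤ O.ncard
    · rw [hker6 h6]
      simp
    · exact hker5 (by omega)
  -- the image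
  have hTns : ¬ Group.IsSolvable ψ.range := by
    intro hS
    apply hns
    have hKs : Group.IsSolvable ψ.ker := by
      have hd : Nat.card ψ.ker ∣ 6 := by
        have hpos : 0 < Nat.card ψ.ker := Nat.card_pos
        interval_cases hb : Nat.card ψ.ker <;> norm_num
      exact isSolvable_of_dvd (by norm_num) (by norm_num) hd (by norm_num) (by norm_num) (by norm_num)
        (by norm_num) (by norm_num) (by norm_num)
    exact Group.isSolvable_of_ker_le_range ψ.ker.subtype ψ.rangeRestrict (by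
      rw [MonoidHom.ker_rangeRestrict, Subgroup.range_subtype])
  haveI hTtr : IsPretransitive ψ.range O := by
    constructor
    intro a b
    obtain ⟨g, hg⟩ := exists_smul_eq Q a b
    exact ⟨⟨ψ g, g, rfl⟩, hg⟩
  set R' : Subgroup (Equiv.Perm O) := R.map ψ with hR'
  have hRT : ∀ t ∈ ψ.range, ∀ r ∈ R', t * r * t⁻¹ ∈ R' := by
    rintro t ⟨g, rfl⟩ _ ⟨r, hr, rfl⟩
    exact ⟨g * r * g⁻¹, hRn.conj_mem r hr g, by simp⟩
  have hR'T : R' ≤ ψ.range := by
    rintro _ ⟨r, -, rfl⟩
    exact ⟨r, rfl⟩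
  have hodd' : Odd (Nat.card R') := hR.of_dvd_nat (Subgroup.card_map_dvd _ _)
  have hn : O.ncard = 5 ∨ O.ncard = 6 ∨ O.ncard = 7 ∨ O.ncard = 8 := by omega
  have hbot : R' = ⊥ := by
    rcases hn with h | h | h | h
    · exact eq_bot_five (hcardO.trans h) hTns hRT hodd'
    · exact eq_bot_six (hcardO.trans h) hTns hRT hR'T hodd'
    · exact eq_bot_seven (hcardO.trans h) hTns hRT hR'T hodd'
    · exact eq_bot_eight (hcardO.trans h) hRT hR'T hodd'
  have hRK : R ≤ ψ.ker := (Subgroup.map_eq_bot_iff _).mp hbot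
  have h5 : O.ncard = 5 := by
    by_contra hne
    apply hR1
    rw [eq_bot_iff, ← hker6 (by omega)]
    exact hRK
  have hK3 : Nat.card ψ.ker = 3 := by
    have h1 := hker5 h5
    have h2 : Nat.card R ≤ Nat.card ψ.ker := Subgroup.card_le_of_le hRK
    have h3 : Nat.card R ≠ 1 := fun h => hR1 (Subgroup.card_eq_one.mp h)
    obtain ⟨k, hk⟩ := hR
    omega
  exact final_five (hcardO.trans h5) ψ hTns hK3

end action

end Cfsg.Agent.Lib.SecRank4.OddCore
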