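import Cfsg.Agent.S3103
import Cfsg.Agent.Lib.OverLat.A8.Classify
import Cfsg.Agent.Lib.SecRank4.OddCore

/-!
# The nonsolvable subgroups of `A₈` with `O₂ = 1`
-/

set_option autoImplicit false

namespace Cfsg.Agent.Lib.SecRank4.Q8

open Matrix

/-- `GL₃(2)` is `PSL₃(2)`. -/
theorem gl3_equiv : Nonempty (GL (Fin 3) (ZMod 2) ≃* ProjectiveSpecialLinearGroup (Fin 3) (ZMod 2)) := by
  have hdet : ∀ g : GL (Fin 3) (ZMod 2), (g : Matrix (Fin 3) (Fin 3) (ZMod 2)).det = 1 := by
    intro g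
    have h := (Matrix.isUnit_iff_isUnit_det _).mp g.isUnit
    have h1 : ∀ x : ZMod 2, IsUnit x → x = 1 := by decide
    exact h1 _ h
  let toSL : GL (Fin 3) (ZMod 2) →* SpecialLinearGroup (Fin 3) (ZMod 2) :=
    { toFun := fun g => ⟨g, hdet g⟩
      map_one' := Subtype.ext rfl
      map_mul' := fun a b => Subtype.ext rfl }
  have htoSL : Function.Injective toSL := by
    intro a b h
    apply Units.ext
    exact congrArg Subtype.val h
  have htoSL' : Function.Surjective toSL := by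
    intro s
    exact ⟨s.toGL, Subtype.ext rfl⟩
  have hcen : Subgroup.center (SpecialLinearGroup (Fin 3) (ZMod 2)) = ⊥ := by
    apply Subgroup.eq_bot_of_card_eq
    rw [Cfsg.Agent.Lib.Classical.SLBasic.card_center_sl, ZMod.card]
    simp
  let mk : SpecialLinearGroup (Fin 3) (ZMod 2) →* ProjectiveSpecialLinearGroup (Fin 3) (ZMod 2) :=
    QuotientGroup.mk' _
  have hmk : Function.Injective mk := by
    rw [injective_iff_map_eq_one]
    intro a ha
    have : a ∈ Subgroup.center (SpecialLinearGroup (Fin 3) (ZMod 2)) :=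
      (QuotientGroup.eq_one_iff a).mp ha
    rwa [hcen, Subgroup.mem_bot] at this
  exact ⟨MulEquiv.ofBijective (mk.comp toSL)
    ⟨hmk.comp htoSL, (QuotientGroup.mk'_surjective _).comp htoSL'⟩⟩

/-- `A₈` and `GL₄(2)`. -/
theorem exists_embed_GL {Q : Type*} [Group Q] (f : Q →* ↥(alternatingGroup (Fin 8)))
    (hf : Function.Injective f) : ∃ φ : Q →* GL (Fin 4) (ZMod 2), Function.Injective φ := by
  obtain ⟨g, hg⟩ := Cfsg.Agent.S3103.exists_embed_A8
  have hc1 : Nat.card (GL (Fin 4) (ZMod 2)) = 20160 := Cfsg.Agent.Lib.OverLat.A8.GL4.card_GL4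
  have hc2 : Nat.card (alternatingGroup (Fin 8)) = 20160 := by
    have h := two_mul_nat_card_alternatingGroup (α := Fin 8)
    rw [Nat.card_eq_fintype_card (α := Equiv.Perm (Fin 8)), Fintype.card_perm, Fintype.card_fin] at h
    have h2 : Nat.factorial 8 = 40320 := rfl
    omega
  have hb : Function.Bijective g :=
    hg.bijective_of_nat_card_le (by rw [hc1, hc2])
  let Γ : GL (Fin 4) (ZMod 2) ≃* ↥(alternatingGroup (Fin 8)) := MulEquiv.ofBijective g hb
  exact ⟨Γ.symm.toMonoidHom.comp f, Γ.symm.injective.comp hf⟩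

/-- The classification. -/
theorem classifyQ {Q : Type*} [Group Q] [Finite Q] (f : Q →* ↥(alternatingGroup (Fin 8)))
    (hf : Function.Injective f) (hns : ¬ Group.IsSolvable Q) (hO2 : Cfsg.pCore 2 Q = ⊥) :
    ((∃ (F : Type) (_ : Field F) (_ : Fintype F), Fintype.card F = 2 ∧
          Nonempty (Q ≃* Matrix.ProjectiveSpecialLinearGroup (Fin 3) F)) ∨
        (∃ n : ℕ, 5 ≤ n ∧ n ≤ 8 ∧ Nonempty (Q ≃* ↥(alternatingGroup (Fin n)))) ∨
        (∃ n : ℕ, 5 ≤ n ∧ n ≤ 7 ∧ Nonempty (Q ≃* Equiv.Perm (Fin n))) ∨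
        (Nat.card ↥(Cfsg.pCore 3 Q) = 3 ∧
          (Nonempty (Q ⧸ Cfsg.pCore 3 Q ≃* ↥(alternatingGroup (Fin 5))) ∨
            Nonempty (Q ⧸ Cfsg.pCore 3 Q ≃* Equiv.Perm (Fin 5))))) := by
  by_cases hodd : Cfsg.pPrimeCore 2 Q = ⊥
  · obtain ⟨φ, hφ⟩ := exists_embed_GL f hf
    let e : Q ≃* φ.range := MonoidHom.ofInjective hφ
    have hE : Cfsg.Agent.Lib.OverLat.Basic.Excl Q :=
      Cfsg.Agent.Lib.OverLat.Basic.excl_of_cores hO2 hodd
    have hH : φ.range ≠ ⊥ := by
      intro h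
      apply hns
      have hs : Subsingleton Q := by
        constructor
        intro a b
        apply hφ
        have h1 : φ a ∈ φ.range := ⟨a, rfl⟩
        have h2 : φ b ∈ φ.range := ⟨b, rfl⟩
        rw [h, Subgroup.mem_bot] at h1 h2
        rw [h1, h2]
      infer_instance
    have hT := Cfsg.Agent.Lib.OverLat.A8.Common.Target.of_equiv e
      (Cfsg.Agent.Lib.OverLat.A8.Classify.classify φ.range hH
        (Cfsg.Agent.Lib.OverLat.Basic.Excl.of_equiv e hE))
    rcases hT with ⟨n, h1, h2, h3⟩ | h | h | ⟨⟨h⟩⟩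
    · exact Or.inr (Or.inl ⟨n, h1, h2, h3⟩)
    · exact Or.inr (Or.inr (Or.inl ⟨5, le_rfl, by norm_num, h⟩))
    · exact Or.inr (Or.inr (Or.inl ⟨6, by norm_num, by norm_num, h⟩))
    · obtain ⟨e'⟩ := gl3_equiv
      exact Or.inl ⟨ZMod 2, inferInstance, inferInstance, ZMod.card 2, ⟨h.trans e'⟩⟩
  · right; right; right
    letI : MulAction Q (Fin 8) := MulAction.compHom (Fin 8) ((alternatingGroup (Fin 8)).subtype.comp f)
    have hperm : ∀ g, MulAction.toPermHom Q (Fin 8) g = ((f g : ↥(alternatingGroup (Fin 8))) : Equiv.Perm (Fin 8)) := by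
      intro g
      ext a
      rfl
    have hf' : Function.Injective (MulAction.toPermHom Q (Fin 8)) := by
      intro a b h
      rw [hperm, hperm] at h
      exact hf (Subtype.ext h)
    have hev : ∀ g, Equiv.Perm.sign (MulAction.toPermHom Q (Fin 8) g) = 1 := by
      intro g
      rw [hperm]
      exact Equiv.Perm.mem_alternatingGroup.mp (f g).2
    haveI hRn : (Cfsg.pPrimeCore 2 Q).Normal := Cfsg.pPrimeCore_normal 2 Q
    have hR : Odd (Nat.card (Cfsg.pPrimeCore 2 Q)) :=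
      Nat.coprime_two_right.mp Cfsg.Agent.Lib.Core.Basic.pPrimeCore_coprime
    exact Cfsg.Agent.Lib.SecRank4.OddCore.main_odd (Fintype.card_fin 8) hf' hev hns
      (Cfsg.pPrimeCore 2 Q) hR hodd

end Cfsg.Agent.Lib.SecRank4.Q8
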